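import Mathlib
import Cfsg.Agent.Lib.Helper70.CMax.Basic

/-!
# CMAX ladder, rung RED (reduction to the centerless case)
-/

set_option autoImplicit false

namespace Cfsg.Agent.Lib.Helper1.CMax

open Subgroup Cfsg.Agent.Lib.Helper70.CMax

variable {G : Type*} [Group G]

theorem red_mem_norm_inf {N K : Subgroup G} [hN : N.Normal] {m : G} (hm : m ∈ K) :
    m ∈ normalizer ((N ⊓ K : Subgroup G) : Set G) := by
  rw [mem_normalizer_iff]
  intro g
  constructor
  · rintro ⟨a, b⟩
    exact ⟨hN.conj_mem _ a _, K.mul_mem (K.mul_mem hm b) (K.inv_mem hm)⟩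
  · rintro ⟨a, b⟩
    have e : g = m⁻¹ * (m * g * m⁻¹) * m⁻¹⁻¹ := by group
    rw [e]
    exact ⟨hN.conj_mem _ a _, K.mul_mem (K.mul_mem (K.inv_mem hm) b) (K.inv_mem (K.inv_mem hm))⟩

/-- a noncentral element of `N` has a prime power in `C(N)` when `[N,N] ≤ C(N)`. -/
theorem red_prime [Finite G] {N : Subgroup G} [hN : N.Normal] (h : Hyp N)
    (hc : ∀ g ∈ N, ∀ k ∈ N, g * k * g⁻¹ * k⁻¹ ∈ centralizer (N : Set G))
    {x : G} (hx : x ∈ N) (hxZ : x ∉ centralizer (N : Set G)) :
    ∃ p : ℕ, p.Prime ∧ x ^ p ∈ centralizer (N : Set G) := by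
  have hmax := h x hx hxZ
  rw [mem_centralizer_iff] at hxZ
  simp only [not_forall] at hxZ
  obtain ⟨g0, hg0, hne⟩ := hxZ
  have hg0N : g0 ∈ N := hg0
  set z := g0 * x * g0⁻¹ * x⁻¹ with hz
  have hzC : z ∈ centralizer (N : Set G) := hc g0 hg0N x hx
  have hz1 : z ≠ 1 := by
    intro h1
    apply hne
    have : g0 * x * g0⁻¹ * x⁻¹ = 1 := h1
    calc g0 * x = (g0 * x * g0⁻¹ * x⁻¹) * (x * g0) := by group
      _ = x * g0 := by rw [this, one_mul]
  have hzx : Commute z x := ((mem_centralizer_iff.1 hzC) x hx).symm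
  have hzg : Commute z g0 := ((mem_centralizer_iff.1 hzC) g0 hg0N).symm
  have hgx : g0 * x * g0⁻¹ = z * x := by rw [hz]; group
  have A1 : ∀ k : ℕ, g0 ^ k * x * (g0 ^ k)⁻¹ = z ^ k * x := by
    intro k
    induction k with
    | zero => simp
    | succ k ih =>
      calc g0 ^ (k + 1) * x * (g0 ^ (k + 1))⁻¹ = g0 * (g0 ^ k * x * (g0 ^ k)⁻¹) * g0⁻¹ := by
            rw [pow_succ']; group
        _ = g0 * (z ^ k * x) * g0⁻¹ := by rw [ih]
        _ = (g0 * z ^ k) * x * g0⁻¹ := by group
        _ = (z ^ k * g0) * x * g0⁻¹ := by rw [(hzg.pow_left k).eq]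
        _ = z ^ k * (g0 * x * g0⁻¹) := by group
        _ = z ^ k * (z * x) := by rw [hgx]
        _ = z ^ (k + 1) * x := by rw [pow_succ]; group
  have ho1 : orderOf z ≠ 1 := by rw [Ne, orderOf_eq_one_iff]; exact hz1
  obtain ⟨p, hp, m, hm⟩ := Nat.exists_prime_and_dvd ho1
  refine ⟨p, hp, ?_⟩
  have hopos : 0 < orderOf z := orderOf_pos z
  have hmpos : 0 < m := by
    rcases Nat.eq_zero_or_pos m with h0 | h0
    · rw [h0, mul_zero] at hm; omega
    · exact h0
  have hzm1 : z ^ m ≠ 1 := by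
    intro h1
    have := orderOf_dvd_of_pow_eq_one h1
    have h2 := Nat.le_of_dvd hmpos this
    rw [hm] at h2
    have := hp.two_le
    nlinarith
  have hzmp : (z ^ m) ^ p = 1 := by
    rw [← pow_mul, mul_comm, ← hm]; exact pow_orderOf_eq_one z
  have hg1N : g0 ^ m ∈ N := N.pow_mem hg0N m
  have hg1x : ¬ (g0 ^ m ∈ centralizer ({x} : Set G)) := by
    intro hmem
    rw [mem_cent] at hmem
    apply hzm1
    have := A1 m
    rw [hmem] at this
    have h3 : x = z ^ m * x := by
      calc x = x * g0 ^ m * (g0 ^ m)⁻¹ := by group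
        _ = z ^ m * x := this
    exact (mul_eq_right.1 h3.symm)
  have hg1p : g0 ^ m ∈ centralizer ({x ^ p} : Set G) := by
    rw [mem_cent]
    have h4 : g0 ^ m * x ^ p * (g0 ^ m)⁻¹ = x ^ p := by
      rw [← conj_pow, A1 m, (hzx.pow_left m).mul_pow, hzmp, one_mul]
    calc g0 ^ m * x ^ p = (g0 ^ m * x ^ p * (g0 ^ m)⁻¹) * g0 ^ m := by group
      _ = x ^ p * g0 ^ m := by rw [h4]
  have hnle : ¬ N ≤ centralizer ({x} : Set G) := fun hle => hg1x (hle hg1N)
  have hle : centralizer ({x} : Set G) ≤ centralizer ({x ^ p} : Set G) := by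
    intro g hg
    rw [mem_cent] at hg ⊢
    exact ((show Commute g x from hg).pow_right p).eq
  rcases max_inv (U := N ⊓ centralizer ({x ^ p} : Set G)) hnle hmax
    (inf_le_inf_left _ hle) inf_le_left (fun m hm => red_mem_norm_inf (hle hm)) with hU | hU
  · exfalso
    have : g0 ^ m ∈ N ⊓ centralizer ({x ^ p} : Set G) := ⟨hg1N, hg1p⟩
    rw [hU] at this
    exact hg1x this.2
  · rw [mem_centralizer_iff]
    intro g hg
    have : g ∈ N ⊓ centralizer ({x ^ p} : Set G) := by rw [hU]; exact hg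
    exact mem_cent.1 this.2

theorem red [Finite G] {N : Subgroup G} [hN : N.Normal] (h : Hyp N) :
    (∃ p : ℕ, p.Prime ∧ (∀ g ∈ N, g ^ p ∈ centralizer (N : Set G)) ∧
      ∀ g ∈ N, ∀ k ∈ N, g * k * g⁻¹ * k⁻¹ ∈ centralizer (N : Set G)) ∨
    (¬ N ≤ centralizer (N : Set G) ∧
      ∀ w ∈ N, (∀ g ∈ N, w * g * w⁻¹ * g⁻¹ ∈ centralizer (N : Set G)) → w ∈ centralizer (N : Set G)) := by
  by_cases h1 : N ≤ centralizer (N : Set G)
  · left
    exact ⟨2, Nat.prime_two, fun g hg => h1 (N.pow_mem hg 2), fun g hg k hk =>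
      h1 (N.mul_mem (N.mul_mem (N.mul_mem hg hk) (N.inv_mem hg)) (N.inv_mem hk))⟩
  by_cases h2 : ∀ w ∈ N, (∀ g ∈ N, w * g * w⁻¹ * g⁻¹ ∈ centralizer (N : Set G)) →
      w ∈ centralizer (N : Set G)
  · exact Or.inr ⟨h1, h2⟩
  left
  simp only [not_forall] at h2
  obtain ⟨w, hw, hwc, hwZ⟩ := h2
  have hZn : (N ⊓ centralizer (N : Set G)).Normal := inferInstance
  set Z' : Subgroup G := N ⊓ centralizer (N : Set G) with hZ'
  let π : G →* G ⧸ Z' := QuotientGroup.mk' Z'
  have hπ1 : ∀ g : G, π g = 1 ↔ g ∈ Z' := fun g => QuotientGroup.eq_one_iff g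
  have hcomm_of : ∀ a b : G, a * b * a⁻¹ * b⁻¹ ∈ Z' → Commute (π a) (π b) := by
    intro a b hab
    have := (hπ1 _).2 hab
    simp only [map_mul, map_inv] at this
    show π a * π b = π b * π a
    calc π a * π b = (π a * π b * (π a)⁻¹ * (π b)⁻¹) * (π b * π a) := by group
      _ = π b * π a := by rw [this, one_mul]
  have hof_comm : ∀ a b : G, Commute (π a) (π b) → a * b * a⁻¹ * b⁻¹ ∈ Z' := by
    intro a b hab
    rw [← hπ1]
    simp only [map_mul, map_inv]
    rw [hab.eq]; group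
  -- Step 1
  have step1 : ∀ x ∈ N, w * x ≠ x * w → ∀ g ∈ N, Commute (π g) (π x) := by
    intro x hx hwx
    have hxZ : x ∉ centralizer (N : Set G) := by
      intro hmem
      exact hwx ((mem_centralizer_iff.1 hmem) w hw)
    have hmax := h x hx hxZ
    have hnle : ¬ N ≤ centralizer ({x} : Set G) := fun hle => hwx (mem_cent.1 (hle hw))
    have hle : centralizer ({x} : Set G) ≤ (centralizer ({π x} : Set (G ⧸ Z'))).comap π := by
      intro g hg
      rw [mem_cent] at hg
      rw [mem_comap, mem_cent, ← map_mul, ← map_mul, hg]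
    have hwU : w ∈ N ⊓ (centralizer ({π x} : Set (G ⧸ Z'))).comap π := by
      refine ⟨hw, ?_⟩
      show w ∈ (centralizer ({π x} : Set (G ⧸ Z'))).comap π
      rw [mem_comap, mem_cent]
      exact (hcomm_of w x ⟨N.mul_mem (N.mul_mem (N.mul_mem hw hx) (N.inv_mem hw)) (N.inv_mem hx),
        hwc x hx⟩).eq
    rcases max_inv (U := N ⊓ (centralizer ({π x} : Set (G ⧸ Z'))).comap π) hnle hmax
      (inf_le_inf_left _ hle) inf_le_left (fun m hm => red_mem_norm_inf (hle hm)) with hU | hU
    · exfalso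
      rw [hU] at hwU
      exact hwx (mem_cent.1 hwU.2)
    · intro g hg
      have : g ∈ N ⊓ (centralizer ({π x} : Set (G ⧸ Z'))).comap π := by rw [hU]; exact hg
      exact mem_cent.1 (mem_comap.1 this.2)
  have hall : ∀ x ∈ N, ∀ g ∈ N, Commute (π g) (π x) := by
    intro x hx g hg
    by_cases hwx : w * x = x * w
    · rw [mem_centralizer_iff] at hwZ
      simp only [not_forall] at hwZ
      obtain ⟨x1, hx1, hne⟩ := hwZ
      have hx1N : x1 ∈ N := hx1
      have hne1 : w * x1 ≠ x1 * w := fun e => hne e.symm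
      have hne2 : w * (x * x1) ≠ (x * x1) * w := by
        intro e
        apply hne1
        have : x * (w * x1) = x * (x1 * w) := by
          calc x * (w * x1) = (x * w) * x1 := by group
            _ = (w * x) * x1 := by rw [hwx]
            _ = w * (x * x1) := by group
            _ = x * x1 * w := e
            _ = x * (x1 * w) := by group
        exact mul_left_cancel this
      have c1 := step1 x1 hx1N hne1 g hg
      have c2 := step1 (x * x1) (N.mul_mem hx hx1N) hne2 g hg
      have e : π x = π (x * x1) * (π x1)⁻¹ := by rw [map_mul]; group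
      rw [e]
      exact c2.mul_right c1.inv_right
    · exact step1 x hx hwx g hg
  have hc : ∀ g ∈ N, ∀ k ∈ N, g * k * g⁻¹ * k⁻¹ ∈ centralizer (N : Set G) :=
    fun g hg k hk => (hof_comm g k (hall k hk g hg)).2
  -- Step 2
  have hord : ∀ x ∈ N, π x = 1 ∨ (orderOf (π x)).Prime := by
    intro x hx
    by_cases hxZ : x ∈ centralizer (N : Set G)
    · left
      exact (hπ1 x).2 ⟨hx, hxZ⟩
    · right
      obtain ⟨p, hp, hxp⟩ := red_prime h hc hx hxZ
      have e1 : (π x) ^ p = 1 := by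
        rw [← map_pow]; exact (hπ1 _).2 ⟨N.pow_mem hx p, hxp⟩
      have e2 : π x ≠ 1 := fun e => hxZ ((hπ1 x).1 e).2
      have := Fact.mk hp
      rw [orderOf_eq_prime e1 e2]
      exact hp
  have hwp : (orderOf (π w)).Prime := by
    rcases hord w hw with e | e
    · exact absurd ((hπ1 w).1 e).2 hwZ
    · exact e
  refine ⟨orderOf (π w), hwp, ?_, hc⟩
  intro g hg
  have key : (π g) ^ (orderOf (π w)) = 1 := by
    rcases hord g hg with e | e
    · rw [e, one_pow]
    · by_cases hpq : orderOf (π g) = orderOf (π w)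
      · rw [← hpq]; exact pow_orderOf_eq_one _
      · exfalso
        have hcop : Nat.Coprime (orderOf (π w)) (orderOf (π g)) :=
          (Nat.coprime_primes hwp e).2 (fun e' => hpq e'.symm)
        have hmul := (hall g hg w hw).orderOf_mul_eq_mul_orderOf_of_coprime hcop
        rw [← map_mul] at hmul
        rcases hord (w * g) (N.mul_mem hw hg) with e3 | e3
        · rw [e3, orderOf_one] at hmul
          have := hwp.two_le
          have := e.two_le
          nlinarith
        · rw [hmul] at e3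
          exact Nat.not_prime_mul hwp.one_lt.ne' e.one_lt.ne' e3
  rw [← map_pow] at key
  exact ((hπ1 _).1 key).2

end Cfsg.Agent.Lib.Helper1.CMax
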