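import Mathlib
import Cfsg.Agent.Lib.Helper70.FI.Defs

set_option autoImplicit false

namespace Cfsg.Agent.Lib.Helper1.FI

open Cfsg.Agent.Lib.Helper70.FI

/-- fixed points of `φ t`. -/
def geoFix {R V : Type*} [Group R] [CommGroup V] (φ : R →* MulAut V) (t : R) : Subgroup V where
  carrier := {v | φ t v = v}
  one_mem' := by simp
  mul_mem' := by
    intro x y hx hy
    simp only [Set.mem_ofPred_eq] at *
    rw [map_mul, hx, hy]
  inv_mem' := by
    intro x hx
    simp only [Set.mem_ofPred_eq] at *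
    rw [map_inv, hx]

theorem geo_mem_fix {R V : Type*} [Group R] [CommGroup V] (φ : R →* MulAut V) (t : R) (v : V) :
    v ∈ geoFix φ t ↔ φ t v = v := Iff.rfl

theorem geo_mul_mem {R V : Type*} [Group R] [CommGroup V] (φ : R →* MulAut V) (t : R)
    (ht : t * t = 1) (v : V) : v * φ t v ∈ geoFix φ t := by
  rw [geo_mem_fix, map_mul, ← MulAut.mul_apply, ← map_mul, ht, map_one, MulAut.one_apply, mul_comm]

/-- if `t² = 1` and `Fix t = ⊥` then `t` inverts. -/
theorem geo_inverts {R V : Type*} [Group R] [CommGroup V] (φ : R →* MulAut V) (t : R)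
    (ht : t * t = 1) (hF : geoFix φ t = ⊥) (v : V) : φ t v = v⁻¹ := by
  have h1 := geo_mul_mem φ t ht v
  rw [hF, Subgroup.mem_bot] at h1
  exact eq_inv_of_mul_eq_one_right h1

theorem geo_fix_ne_top {R V : Type*} [Group R] [CommGroup V] (φ : R →* MulAut V)
    (hinj : Function.Injective φ) (t : R) (ht : t ≠ 1) : geoFix φ t ≠ ⊤ := by
  intro hT
  apply ht
  apply hinj
  rw [map_one]
  ext v
  have : v ∈ geoFix φ t := by rw [hT]; trivial
  exact (geo_mem_fix φ t v).mp this

theorem geo_fix_inv {R V : Type*} [Group R] [CommGroup V] (φ : R →* MulAut V) (t g : R)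
    (hc : g * t = t * g) (v : V) (hv : v ∈ geoFix φ t) : φ g v ∈ geoFix φ t := by
  rw [geo_mem_fix] at hv ⊢
  rw [← MulAut.mul_apply, ← map_mul, ← hc, map_mul, MulAut.mul_apply, hv]

theorem geo {r : ℕ} (hr : r.Prime) (hr2 : r ≠ 2) {R V : Type*} [Group R] [CommGroup V]
    {φ : R →* MulAut V} (h : Cfg r R V φ) (hirr : ∀ U : Subgroup V, Inv φ U → U = ⊥ ∨ U = ⊤)
    {a z : R} (hz : z ∈ Subgroup.center R) (hz1 : z ≠ 1) (hz2 : z * z = 1) (ha2 : a * a = 1)
    (ha1 : a ≠ 1) (haz : a ≠ z) (hconj : ∀ g : R, g * a * g⁻¹ = a ∨ g * a * g⁻¹ = a * z) :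
    ∃ (P₀ : Subgroup R) (W : Subgroup V), P₀.index = 2 ∧ Inv (φ.comp P₀.subtype) W ∧
      Nat.card ↥W * Nat.card ↥W = Nat.card V ∧ ∃ x y : R, x * y ≠ y * x := by
  have := h.finR
  have := h.finV
  have hzc : ∀ g : R, g * z = z * g := fun g => Subgroup.mem_center_iff.mp hz g
  -- z inverts V
  have hFz : geoFix φ z = ⊥ := by
    rcases hirr (geoFix φ z) (fun g v hv => geo_fix_inv φ z g (hzc g) v hv) with h1 | h1
    · exact h1
    · exact absurd h1 (geo_fix_ne_top φ h.inj z hz1)
  have hzinv : ∀ v, φ z v = v⁻¹ := geo_inverts φ z hz2 hFz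
  -- W
  have hWtop : geoFix φ a ≠ ⊤ := geo_fix_ne_top φ h.inj a ha1
  have hWbot : geoFix φ a ≠ ⊥ := by
    intro hb
    apply haz
    apply h.inj
    ext v
    rw [geo_inverts φ a ha2 hb v, hzinv v]
  -- x
  have hx : ∃ x : R, x * a * x⁻¹ ≠ a := by
    by_contra hcon
    simp only [not_exists, not_not] at hcon
    rcases hirr (geoFix φ a) (fun g v hv => geo_fix_inv φ a g
      (by have := hcon g; rw [mul_inv_eq_iff_eq_mul] at this; exact this) v hv) with h1 | h1
    · exact hWbot h1
    · exact hWtop h1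
  obtain ⟨x, hx⟩ := hx
  have hxa : x * a * x⁻¹ = a * z := (hconj x).resolve_left hx
  have hxa' : a * x = x * a * z := by
    have h1 : x * a = a * z * x := by rw [← hxa]; group
    rw [h1, mul_assoc a z x, ← hzc x, mul_assoc, mul_assoc, hz2, mul_one]
  have hmemC : ∀ g : R, g ∈ Subgroup.centralizer ({a} : Set R) ↔ g * a * g⁻¹ = a := by
    intro g
    rw [Subgroup.mem_centralizer_singleton_iff, mul_inv_eq_iff_eq_mul]
  refine ⟨Subgroup.centralizer {a}, geoFix φ a, ?_, ?_, ?_, x, a, ?_⟩
  · rw [Subgroup.index_eq_two_iff]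
    refine ⟨x, fun g => ?_⟩
    rw [hmemC, hmemC]
    have e1 : g * x * a * (g * x)⁻¹ = g * a * g⁻¹ * z := by
      have : g * x * a * (g * x)⁻¹ = g * (x * a * x⁻¹) * g⁻¹ := by group
      rw [this, hxa, ← mul_assoc, mul_assoc (g * a) z, ← hzc g⁻¹, ← mul_assoc]
    rw [e1]
    rcases hconj g with h1 | h1
    · rw [h1]
      refine Or.inr ⟨rfl, ?_⟩
      intro h2
      exact hz1 (mul_eq_left.mp h2)
    · rw [h1]
      refine Or.inl ⟨by rw [mul_assoc, hz2, mul_one], ?_⟩
      intro h2
      exact hz1 (mul_eq_left.mp h2)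
  · intro g v hv
    have hg : (g : R) * a = a * g := by
      have := (hmemC g).mp g.2
      rw [mul_inv_eq_iff_eq_mul] at this; exact this
    exact geo_fix_inv φ a g hg v hv
  · -- the hom
    let f : V →* V :=
      { toFun := fun v => v * φ a v
        map_one' := by simp
        map_mul' := by
          intro u v
          rw [map_mul]
          exact mul_mul_mul_comm _ _ _ _ }
    have hf : ∀ v, f v = v * φ a v := fun _ => rfl
    have hodd : ∃ k, r = 2 * k + 1 := by
      rcases hr.eq_two_or_odd' with h2 | h2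
      · exact absurd h2 hr2
      · exact h2
    obtain ⟨k, hk⟩ := hodd
    have hrange : f.range = geoFix φ a := by
      apply le_antisymm
      · rintro _ ⟨v, rfl⟩
        exact geo_mul_mem φ a ha2 v
      · intro w hw
        refine ⟨w ^ (k + 1), ?_⟩
        rw [hf, map_pow, (geo_mem_fix φ a w).mp hw, ← pow_add]
        have : k + 1 + (k + 1) = r + 1 := by omega
        rw [this, pow_succ, h.exp w, one_mul]
    have hker : ∀ v, v ∈ f.ker ↔ φ a v = v⁻¹ := by
      intro v
      rw [MonoidHom.mem_ker, hf]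
      constructor
      · intro h1; exact eq_inv_of_mul_eq_one_right h1
      · intro h1; rw [h1, mul_inv_cancel]
    have hax : ∀ v, φ a (φ x v) = φ x (φ a v)⁻¹ := by
      intro v
      rw [← MulAut.mul_apply, ← map_mul, hxa', map_mul, map_mul, MulAut.mul_apply,
        MulAut.mul_apply, hzinv, map_inv]
    have hc1 : Nat.card (geoFix φ a) ≤ Nat.card f.ker := by
      apply Nat.card_le_card_of_injective
        (fun w : geoFix φ a => (⟨φ x w, by
          rw [hker, hax, (geo_mem_fix φ a _).mp w.2, map_inv]⟩ : f.ker))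
      intro u v huv
      have := congrArg Subtype.val huv
      exact Subtype.ext ((φ x).injective this)
    have hc2 : Nat.card f.ker ≤ Nat.card (geoFix φ a) := by
      apply Nat.card_le_card_of_injective
        (fun w : f.ker => (⟨φ x w, by
          rw [geo_mem_fix, hax, (hker _).mp w.2, inv_inv]⟩ : geoFix φ a))
      intro u v huv
      have := congrArg Subtype.val huv
      exact Subtype.ext ((φ x).injective this)
    have hc : Nat.card f.ker = Nat.card (geoFix φ a) := le_antisymm hc2 hc1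
    have h3 := Subgroup.card_eq_card_quotient_mul_card_subgroup f.ker
    rw [Nat.card_congr (QuotientGroup.quotientKerEquivRange f).toEquiv, hrange, hc] at h3
    exact h3.symm
  · intro h1
    apply hx
    rw [h1, mul_inv_cancel_right]

end Cfsg.Agent.Lib.Helper1.FI
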