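import Mathlib
import Cfsg.Agent.Lib.Helper70.FI.Defs

set_option autoImplicit false

namespace Cfsg.Agent.Lib.Helper1.FI

open Cfsg.Agent.Lib.Helper70.FI

universe u

/-- elements of `N` killed by `r`. -/
def setupOmega {G : Type*} [Group G] (N : Subgroup G) (hNab : IsMulCommutative ↥N) (r : ℕ) :
    Subgroup G where
  carrier := {x | x ∈ N ∧ x ^ r = 1}
  one_mem' := ⟨N.one_mem, one_pow _⟩
  mul_mem' := by
    rintro x y ⟨hx, hx1⟩ ⟨hy, hy1⟩
    refine ⟨N.mul_mem hx hy, ?_⟩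
    have hc : Commute x y := by
      have := hNab.is_comm.comm ⟨x, hx⟩ ⟨y, hy⟩
      exact congrArg Subtype.val this
    rw [hc.mul_pow, hx1, hy1, one_mul]
  inv_mem' := by
    rintro x ⟨hx, hx1⟩
    exact ⟨N.inv_mem hx, by rw [inv_pow, hx1, inv_one]⟩

theorem setup_exp {G : Type*} [Group G] [Finite G] (N : Subgroup G) (hN : N.Normal)
    (hNab : IsMulCommutative ↥N)
    (hmin : N ≠ ⊥ ∧ ∀ M : Subgroup G, M.Normal → M ≠ ⊥ → N ≤ M) {r : ℕ} (hr : r.Prime)
    (hdvd : r ∣ Nat.card ↥N) : ∀ x ∈ N, x ^ r = 1 := by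
  have := Fact.mk hr
  have hnorm : (setupOmega N hNab r).Normal := by
    constructor
    rintro x ⟨hx, hx1⟩ g
    refine ⟨hN.conj_mem x hx g, ?_⟩
    rw [conj_pow, hx1, mul_one, mul_inv_cancel]
  have hne : setupOmega N hNab r ≠ ⊥ := by
    obtain ⟨x, hx⟩ := exists_prime_orderOf_dvd_card' r hdvd
    intro hb
    have hmem : (x : G) ∈ setupOmega N hNab r := by
      refine ⟨x.2, ?_⟩
      have := pow_orderOf_eq_one x
      rw [hx] at this
      exact_mod_cast congrArg Subtype.val this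
    rw [hb, Subgroup.mem_bot] at hmem
    have hx1 : x = 1 := Subtype.ext hmem
    rw [hx1, orderOf_one] at hx
    exact hr.one_lt.ne hx
  intro x hx
  exact (hmin.2 _ hnorm hne hx).2

theorem setup_faithful {G : Type*} [Group G] (N P : Subgroup G) (hN : N.Normal)
    (hdisj : N ⊓ P = ⊥) (hprod : N ⊔ P = ⊤)
    (hmin : N ≠ ⊥ ∧ ∀ M : Subgroup G, M.Normal → M ≠ ⊥ → N ≤ M) :
    P ⊓ Subgroup.centralizer (N : Set G) = ⊥ := by
  by_contra hne
  have hCn : (Subgroup.centralizer (N : Set G)).Normal := inferInstance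
  have hnorm : (P ⊓ Subgroup.centralizer (N : Set G)).Normal := by
    constructor
    rintro c ⟨hcP, hcC⟩ g
    have hg : g ∈ N ⊔ P := by rw [hprod]; trivial
    obtain ⟨n, hn, p, hp, rfl⟩ := (Subgroup.mem_sup_of_normal_left (s := N) (t := P)).mp hg
    have h1 : p * c * p⁻¹ ∈ Subgroup.centralizer (N : Set G) := hCn.conj_mem c hcC p
    have h2 : n * p * c * (n * p)⁻¹ = p * c * p⁻¹ := by
      have h3 : n * (p * c * p⁻¹) = (p * c * p⁻¹) * n := Subgroup.mem_centralizer_iff.mp h1 n hn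
      calc n * p * c * (n * p)⁻¹ = n * (p * c * p⁻¹) * n⁻¹ := by group
        _ = p * c * p⁻¹ := by rw [h3, mul_inv_cancel_right]
    rw [h2]
    exact ⟨P.mul_mem (P.mul_mem hp hcP) (P.inv_mem hp), h1⟩
  have hle : N ≤ P := (hmin.2 _ hnorm hne).trans inf_le_left
  apply hmin.1
  rw [← hdisj]
  exact (inf_eq_left.mpr hle).symm

theorem setup {G : Type u} [Group G] [Finite G] (N P : Subgroup G) (hN : N.Normal)
    (hNab : IsMulCommutative ↥N) (hNodd : Odd (Nat.card ↥N)) (hP : IsPGroup 2 ↥P) (hdisj : N ⊓ P = ⊥)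
    (hprod : N ⊔ P = ⊤) (hmin : N ≠ ⊥ ∧ ∀ M : Subgroup G, M.Normal → M ≠ ⊥ → N ≤ M) :
    ∃ (r m : ℕ) (V : Type u) (_ : CommGroup V) (φ : ↥P →* MulAut V), r.Prime ∧ r ≠ 2 ∧ 1 ≤ m ∧
      Cfg r ↥P V φ ∧ Nat.card V = r ^ m ∧ Nat.card V = Nat.card ↥N := by
  have hcard1 : Nat.card ↥N ≠ 1 := fun h => hmin.1 (Subgroup.card_eq_one.mp h)
  have hr : (Nat.card ↥N).minFac.Prime := Nat.minFac_prime hcard1
  have hdvd : (Nat.card ↥N).minFac ∣ Nat.card ↥N := Nat.minFac_dvd _
  set r := (Nat.card ↥N).minFac with hrdef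
  have := Fact.mk hr
  have hr2 : r ≠ 2 := by
    intro h2
    rw [h2] at hdvd
    exact (Nat.not_even_iff_odd.mpr hNodd) (even_iff_two_dvd.mpr hdvd)
  have hexp := setup_exp N hN hNab hmin hr hdvd
  have hpg : IsPGroup r ↥N := by
    intro x
    refine ⟨1, ?_⟩
    rw [pow_one]
    exact Subtype.ext (by simpa using hexp x x.2)
  obtain ⟨m, hm⟩ := IsPGroup.iff_card.mp hpg
  have hm1 : 1 ≤ m := by
    rcases Nat.eq_zero_or_pos m with h0 | h0
    · rw [h0, pow_zero] at hm; exact absurd hm hcard1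
    · exact h0
  let inst : CommGroup ↥N := { (inferInstance : Group ↥N) with mul_comm := hNab.is_comm.comm }
  refine ⟨r, m, ↥N, inst, (MulAut.conjNormal (H := N)).comp P.subtype, hr, hr2, hm1, ?_, hm, rfl⟩
  refine ⟨inferInstance, inferInstance, hP, ?_, ?_⟩
  · intro v
    exact Subtype.ext (by simpa using hexp v v.2)
  · rw [injective_iff_map_eq_one]
    intro p hp
    have hmem : (p : G) ∈ P ⊓ Subgroup.centralizer (N : Set G) := by
      refine ⟨p.2, ?_⟩
      show (p : G) ∈ Subgroup.centralizer (N : Set G)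
      rw [Subgroup.mem_centralizer_iff]
      intro n hn
      have h1 := congrArg (fun f : MulAut ↥N => ((f ⟨n, hn⟩ : ↥N) : G)) hp
      simp only [MonoidHom.comp_apply, Subgroup.subtype_apply, MulAut.conjNormal_apply,
        MulAut.one_apply] at h1
      rw [mul_inv_eq_iff_eq_mul] at h1
      exact h1.symm
    rw [setup_faithful N P hN hdisj hprod hmin, Subgroup.mem_bot] at hmem
    exact Subtype.ext hmem

end Cfsg.Agent.Lib.Helper1.FI
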